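import Cfsg.Agent.H908.SLTrans

/-!
# `SL_n` lies in no member of the geometric classes (`n ≥ 2, 3` or `4`)
-/

set_option autoImplicit false
set_option linter.style.haveILetI false

namespace Cfsg.Agent.H908

open Cfsg.Geo Matrix

variable {F : Type*} [Field F] {n : ℕ}

theorem li_pair {v w : Fin n → F} (hv : v ≠ 0) (h : ∀ c : F, c • v ≠ w) :
    LinearIndependent F ![v, w] := by
  rw [LinearIndependent.pair_iff' hv]
  exact h

theorem not_sl_le_stab (hn : 2 ≤ n) {W : Submodule F (Fin n → F)} (h1 : W ≠ ⊥) (h2 : W ≠ ⊤) :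
    ¬ specialLinear (Fin n) F ≤ subspaceStabilizer W := by
  intro h
  obtain ⟨w, hw, hw0⟩ := Submodule.exists_mem_ne_zero_of_ne_bot h1
  have : ∃ v, v ∉ W := by
    by_contra hc
    push Not at hc
    exact h2 (by rw [eq_top_iff]; intro v _; exact hc v)
  obtain ⟨v, hv⟩ := this
  have hv0 : v ≠ 0 := fun h0 => hv (h0 ▸ W.zero_mem)
  obtain ⟨g, hg, e⟩ := exists_sl_map1 hn hw0 hv0
  have := (h hg w).1 hw
  apply hv
  rw [← e]
  exact this

theorem not_sl_le_decomp (hn : 3 ≤ n) {t m : ℕ} {D : Fin t → Submodule F (Fin n → F)}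
    (hD : IsMDecomposition m D) : ¬ specialLinear (Fin n) F ≤ decompositionStabilizer D := by
  intro h
  have ht := hD.two_le
  let i0 : Fin t := ⟨0, by omega⟩
  let i1 : Fin t := ⟨1, by omega⟩
  have h01 : i0 ≠ i1 := by simp [i0, i1, Fin.ext_iff]
  have hne : ∀ i, D i ≠ ⊥ := by
    intro i hi
    have := hD.finrank_eq i
    rw [hi, finrank_bot] at this
    have := hD.pos
    omega
  obtain ⟨v0, hv0, hv00⟩ := Submodule.exists_mem_ne_zero_of_ne_bot (hne i0)
  obtain ⟨v1, hv1, hv10⟩ := Submodule.exists_mem_ne_zero_of_ne_bot (hne i1)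
  have hdis : Disjoint (D i0) (D i1) := hD.indep.pairwiseDisjoint h01
  have hdis' : ∀ x, x ∈ D i0 → x ∈ D i1 → x = 0 := fun x hx hy =>
    (Submodule.disjoint_def.1 hdis) x hx hy
  have l1 : LinearIndependent F ![v0, v1] := by
    apply li_pair hv00
    intro c hc
    exact hv10 (hdis' v1 (hc ▸ (D i0).smul_mem c hv0) hv1)
  have l2 : LinearIndependent F ![v0, v0 + v1] := by
    apply li_pair hv00
    intro c hc
    apply hv10
    apply hdis' v1 _ hv1
    have : v1 = c • v0 - v0 := by rw [hc]; simp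
    rw [this]
    exact (D i0).sub_mem ((D i0).smul_mem c hv0) hv0
  obtain ⟨g, hg, e0, e1⟩ := exists_sl_map2 hn l1 l2
  obtain ⟨σ, hσ⟩ := h hg
  have a0 : v0 ∈ D (σ i0) := by
    rw [← hσ i0, ← e0]
    exact ⟨v0, hv0, rfl⟩
  have a1 : v0 + v1 ∈ D (σ i1) := by
    rw [← hσ i1, ← e1]
    exact ⟨v1, hv1, rfl⟩
  have key : ∀ i j, i ≠ j → ∀ x, x ∈ D i → x ∈ D j → x = 0 := fun i j hij x hx hy =>
    (Submodule.disjoint_def.1 (hD.indep.pairwiseDisjoint hij)) x hx hy
  have b0 : σ i0 = i0 := by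
    by_contra hne'
    exact hv00 (key _ _ hne' v0 a0 hv0)
  have b1 : σ i1 ≠ i0 := fun hh => h01 (σ.injective (by rw [b0, hh]))
  by_cases b2 : σ i1 = i1
  · rw [b2] at a1
    apply hv00
    apply hdis' v0 hv0
    have : v0 = (v0 + v1) - v1 := by simp
    rw [this]
    exact (D i1).sub_mem a1 hv1
  · -- `v0 + v1 ∈ D (σ i1)`, disjoint from the sum of the others
    have hd := hD.indep (σ i1)
    have hmem : v0 + v1 ∈ ⨆ j, ⨆ (_ : j ≠ σ i1), D j := by
      apply Submodule.add_mem
      · exact (le_iSup₂_of_le (f := fun j (_ : j ≠ σ i1) => D j) i0 (Ne.symm b1) le_rfl) hv0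
      · exact (le_iSup₂_of_le (f := fun j (_ : j ≠ σ i1) => D j) i1 (Ne.symm b2) le_rfl) hv1
    have h0 : v0 + v1 = 0 := (Submodule.disjoint_def.1 hd) _ a1 hmem
    apply hv00
    apply hdis' v0 hv0
    have : v0 = - v1 := eq_neg_of_add_eq_zero_left h0
    rw [this]
    exact (D i1).neg_mem hv1

/-- A non-scalar matrix moves some line. -/
theorem exists_not_smul {A : Matrix (Fin n) (Fin n) F} (hA : ∀ c : F, A ≠ c • (1 : Matrix (Fin n) (Fin n) F)) :
    ∃ v : Fin n → F, v ≠ 0 ∧ ∀ c : F, c • v ≠ A *ᵥ v := by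
  by_contra hc
  push Not at hc
  have : ∀ v : Fin n → F, ¬ LinearIndependent F ![v, (Matrix.toLin' A) v] := by
    intro v hv
    have hv0 : v ≠ 0 := hv.ne_zero 0
    obtain ⟨c, hc'⟩ := hc v hv0
    rw [LinearIndependent.pair_iff' hv0] at hv
    exact hv c (by rw [Matrix.toLin'_apply]; exact hc')
  by_cases hn : n = 0
  · subst hn
    exact hA 0 (by ext i; exact i.elim0)
  have hpos : 0 < n := Nat.pos_of_ne_zero hn
  obtain ⟨c, hc'⟩ : ∃ c : F, Matrix.toLin' A = c • 1 :=
    LinearMap.exists_eq_smul_id_of_forall_notLinearIndependent this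
  apply hA c
  have := congrArg LinearMap.toMatrix' hc'
  rw [LinearMap.toMatrix'_toLin'] at this
  rw [this]
  simp

theorem not_sl_le_fieldNormalizer (hn : 3 ≤ n) {r : ℕ} (hr : 2 ≤ r) (hrn : r < n)
    {K : Subalgebra F (Matrix (Fin n) (Fin n) F)}
    (hK : IsFieldSubalgebra r K) : ¬ specialLinear (Fin n) F ≤ subalgebraNormalizer K := by
  intro h
  -- a non-scalar element of `K`
  obtain ⟨k, hkK, hk⟩ : ∃ k ∈ K, ∀ c : F, k ≠ c • (1 : Matrix (Fin n) (Fin n) F) := by
    by_contra hc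
    push Not at hc
    have : (⊥ : Subalgebra F (Matrix (Fin n) (Fin n) F)) = K := by
      apply le_antisymm bot_le
      intro k hk
      obtain ⟨c, hc'⟩ := hc k hk
      rw [hc', Algebra.mem_bot]
      exact ⟨c, by rw [Algebra.algebraMap_eq_smul_one]⟩
    have h2 := hK.finrank_eq
    rw [← this] at h2
    haveI : Nonempty (Fin n) := ⟨⟨0, by omega⟩⟩
    rw [Subalgebra.finrank_bot] at h2
    omega
  obtain ⟨x, hx0, hx⟩ := exists_not_smul hk
  -- the map `K → F^n`, `k ↦ k x` is not surjective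
  let φ : K →ₗ[F] (Fin n → F) :=
    { toFun := fun a => (a : Matrix (Fin n) (Fin n) F) *ᵥ x
      map_add' := fun a b => by simp [Matrix.add_mulVec]
      map_smul' := fun c a => by simp [Matrix.smul_mulVec] }
  have hns : ¬ Function.Surjective φ := by
    intro hs
    have h1 := LinearMap.finrank_le_finrank_of_surjective (f := φ) hs
    rw [hK.finrank_eq, Module.finrank_fin_fun] at h1
    omega
  rw [Function.Surjective] at hns
  push Not at hns
  obtain ⟨w, hw⟩ := hns
  have l1 : LinearIndependent F ![x, k *ᵥ x] := li_pair hx0 hx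
  have l2 : LinearIndependent F ![x, w] := by
    apply li_pair hx0
    intro c hc
    apply hw ⟨c • 1, K.smul_mem K.one_mem c⟩
    change (c • (1 : Matrix (Fin n) (Fin n) F)) *ᵥ x = w
    rw [Matrix.smul_mulVec, Matrix.one_mulVec, hc]
  obtain ⟨g, hg, e0, e1⟩ := exists_sl_map2 hn l1 l2
  have hm := (h hg k).1 hkK
  apply hw ⟨_, hm⟩
  change ((g : Matrix (Fin n) (Fin n) F) * k * ((g⁻¹ : GL (Fin n) F) : Matrix (Fin n) (Fin n) F)) *ᵥ x = w
  have e2 : ((g⁻¹ : GL (Fin n) F) : Matrix (Fin n) (Fin n) F) *ᵥ x = x := by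
    conv_lhs => rw [← e0]
    rw [Matrix.mulVec_mulVec, ← Units.val_mul, inv_mul_cancel, Units.val_one, Matrix.one_mulVec]
  rw [← Matrix.mulVec_mulVec, e2, ← Matrix.mulVec_mulVec, e1]

theorem sl_conj {g P : GL (Fin n) F} (hg : g ∈ specialLinear (Fin n) F) :
    P * g * P⁻¹ ∈ specialLinear (Fin n) F := by
  haveI : (specialLinear (Fin n) F).Normal := by unfold specialLinear; infer_instance
  exact this.conj_mem g hg P

theorem not_sl_le_subfield (hn : 3 ≤ n) {F₀ : Subfield F} (hF : F₀ ≠ ⊤) (P : GL (Fin n) F) :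
    ¬ specialLinear (Fin n) F ≤ subfieldSubgroup F₀ P := by
  intro h
  apply hF
  rw [eq_top_iff]
  intro a _
  let i0 : Fin n := ⟨0, by omega⟩
  let i1 : Fin n := ⟨1, by omega⟩
  let i2 : Fin n := ⟨2, by omega⟩
  have h01 : i0 ≠ i1 := by simp [i0, i1, Fin.ext_iff]
  have h02 : i0 ≠ i2 := by simp [i0, i2, Fin.ext_iff]
  have h12 : i1 ≠ i2 := by simp [i1, i2, Fin.ext_iff]
  let t : GL (Fin n) F := slMk (Matrix.transvection i0 i1 a) (Matrix.det_transvection_of_ne i0 i1 h01 a)
  have ht : t ∈ specialLinear (Fin n) F := slMk_mem _ _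
  have ht' := h (sl_conj (P := P) ht)
  unfold subfieldSubgroup at ht'
  obtain ⟨y, hy, e⟩ := ht'
  have hyt : y = t := by
    have e' : P * y * P⁻¹ = P * t * P⁻¹ := e
    simpa using e'
  subst hyt
  have hy2 : t ∈ (((Matrix.GeneralLinearGroup.map (F₀.subtype : F₀ →+* F)).range ⊔ scalars (Fin n) F :
    Subgroup (GL (Fin n) F)) : Set (GL (Fin n) F)) := hy
  rw [Subgroup.mul_normal] at hy2
  obtain ⟨m, ⟨m0, rfl⟩, z, hz, e2⟩ := Set.mem_mul.1 hy2
  obtain ⟨c, hc⟩ := (mem_scalars_iff z).1 hz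
  have e3 : ∀ i j, (t : Matrix (Fin n) (Fin n) F) i j = ((m0 : Matrix (Fin n) (Fin n) F₀) i j : F) * (c : F) := by
    intro i j
    rw [← e2, Units.val_mul, hc]
    simp
    ring
  have e4 := e3 i2 i2
  have e5 := e3 i0 i1
  have t1 : (t : Matrix (Fin n) (Fin n) F) i2 i2 = 1 := by
    simp [t, Matrix.transvection, h02]
  have t2 : (t : Matrix (Fin n) (Fin n) F) i0 i1 = a := by
    simp [t, Matrix.transvection, h01]
  rw [t1] at e4
  rw [t2] at e5
  have hcF : (c : F) ∈ F₀ := by
    have : (c : F) = ((m0 : Matrix (Fin n) (Fin n) F₀) i2 i2 : F)⁻¹ := by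
      rw [eq_inv_of_mul_eq_one_right e4.symm]
    rw [this]
    exact F₀.inv_mem (Subtype.mem _)
  rw [e5]
  exact F₀.mul_mem (Subtype.mem _) hcF

/-! ### Forms -/

theorem li_triple {u v w : Fin n → F} (h : LinearIndependent F ![u, v])
    (hw : ∀ a b : F, a • u + b • v ≠ w) : LinearIndependent F ![u, v, w] := by
  rw [LinearIndependent.pair_iff] at h
  rw [Fintype.linearIndependent_iff]
  intro g hg
  have hg' : g 0 • u + g 1 • v + g 2 • w = 0 := by
    simpa [Fin.sum_univ_three] using hg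
  have h2 : g 2 = 0 := by
    by_contra hne
    apply hw (- (g 0) / g 2) (- (g 1) / g 2)
    have : g 2 • w = -(g 0 • u + g 1 • v) := by
      rw [eq_neg_iff_add_eq_zero, add_comm]; exact hg'
    have e : w = (g 2)⁻¹ • (g 2 • w) := by rw [smul_smul, inv_mul_cancel₀ hne, one_smul]
    rw [e, this, smul_neg, smul_add, smul_smul, smul_smul, neg_add]
    rw [← neg_smul, ← neg_smul]
    congr 2 <;> ring
  rw [h2, zero_smul, add_zero] at hg'
  obtain ⟨h0, h1⟩ := h _ _ hg'
  intro i
  fin_cases i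
  · exact h0
  · exact h1
  · exact h2

theorem exists_not_mem_span_pair (hn : 3 ≤ n) (u v : Fin n → F) :
    ∃ w : Fin n → F, ∀ a b : F, a • u + b • v ≠ w := by
  by_contra hc
  push Not at hc
  let φ : (Fin 2 → F) →ₗ[F] (Fin n → F) :=
    { toFun := fun a => a 0 • u + a 1 • v
      map_add' := fun a b => by simp only [Pi.add_apply, add_smul]; abel
      map_smul' := fun c a => by
        simp only [Pi.smul_apply, smul_eq_mul, RingHom.id_apply, smul_add, smul_smul] }
  have hs : Function.Surjective φ := by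
    intro w
    obtain ⟨a, b, h⟩ := hc w
    exact ⟨![a, b], by simpa [φ] using h⟩
  have h1 := LinearMap.finrank_le_finrank_of_surjective (f := φ) hs
  rw [Module.finrank_fin_fun, Module.finrank_fin_fun] at h1
  omega

/-- `SL_n`, `n ≥ 4`, is in no similarity group of a two-argument form that is additive in the second
variable, semilinear in the weak sense `f u (c v) = τ c * f u v`, and not identically zero on pairs
`u ≠ 0`. -/
theorem not_sl_le_similarity (hn : 4 ≤ n) (f : (Fin n → F) → (Fin n → F) → F) (τ : F → F)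
    (hadd : ∀ u v w, f u (v + w) = f u v + f u w) (hsmul : ∀ (c : F) u v, f u (c • v) = τ c * f u v)
    (hnd : IsNondegenerateForm f) : ¬ specialLinear (Fin n) F ≤ similarityGroup f := by
  intro h
  have hiso : ∀ u, f u u = 0 := by
    intro u
    by_contra hne
    have h00 : ∀ v, f v 0 = 0 := by
      intro v
      have := hadd v 0 0
      rw [add_zero] at this
      exact left_eq_add.1 this
    have hu0 : u ≠ 0 := fun h0 => hne (by rw [h0, h00])
    obtain ⟨v, hv⟩ := exists_not_mem_span_pair (F := F) (by omega : 3 ≤ n) u 0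
    have hv' : ∀ c : F, c • u ≠ v := fun c hc => hv c 0 (by rw [smul_zero, add_zero, hc])
    have l1 := li_pair hu0 hv'
    have l2 : LinearIndependent F ![u, v + u] := by
      apply li_pair hu0
      intro c hc
      apply hv' (c - 1)
      rw [sub_smul, one_smul, hc, add_sub_cancel_right]
    obtain ⟨g, hg, e0, e1⟩ := exists_sl_map2 (by omega) l1 l2
    obtain ⟨c, hc⟩ := h hg
    have c1 := hc u u
    rw [e0] at c1
    have hc1 : (c : F) = 1 := by
      have : (1 : F) * f u u = c * f u u := by rw [one_mul]; exact c1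
      exact (mul_right_cancel₀ hne this).symm
    have c2 := hc u v
    rw [e0, e1, hc1, one_mul, hadd] at c2
    exact hne (left_eq_add.1 c2.symm)
  have : ∃ u : Fin n → F, u ≠ 0 := by
    refine ⟨Pi.single ⟨0, by omega⟩ 1, ?_⟩
    intro h0
    have := congrFun h0 ⟨0, by omega⟩
    simp at this
  obtain ⟨u, hu⟩ := this
  obtain ⟨-, v, hv⟩ := hnd u hu
  have hv' : ∀ c : F, c • u ≠ v := by
    intro c hc
    apply hv
    rw [← hc, hsmul, hiso, mul_zero]
  have l1 := li_pair hu hv'
  obtain ⟨w, hw⟩ := exists_not_mem_span_pair (F := F) (by omega : 3 ≤ n) u v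
  have l2 := li_triple l1 hw
  have l3 : LinearIndependent F ![u, v, w + v] := by
    apply li_triple l1
    intro a b hab
    apply hw a (b - 1)
    rw [sub_smul, one_smul, ← add_sub_assoc, hab, add_sub_cancel_right]
  obtain ⟨g, hg, e0, e1, e2⟩ := exists_sl_map3 hn l2 l3
  obtain ⟨c, hc⟩ := h hg
  have c1 := hc u v
  rw [e0, e1] at c1
  have hc1 : (c : F) = 1 := by
    have : (1 : F) * f u v = c * f u v := by rw [one_mul]; exact c1
    exact (mul_right_cancel₀ hv this).symm
  have c2 := hc u w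
  rw [e0, e2, hc1, one_mul, hadd] at c2
  exact hv (left_eq_add.1 c2.symm)

theorem not_sl_le_symplectic (hn : 4 ≤ n) {f : (Fin n → F) → (Fin n → F) → F}
    (hf : IsSymplecticForm f) : ¬ specialLinear (Fin n) F ≤ similarityGroup f :=
  not_sl_le_similarity hn f id (fun u v w => hf.bilinear.add_right u v w)
    (fun c u v => hf.bilinear.smul_right c u v) hf.nondegenerate

theorem not_sl_le_unitary (hn : 4 ≤ n) {σ : F ≃+* F} {f : (Fin n → F) → (Fin n → F) → F}
    (hf : IsUnitaryForm σ f) : ¬ specialLinear (Fin n) F ≤ similarityGroup f := by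
  apply not_sl_le_similarity hn f σ _ _ hf.nondegenerate
  · intro u v w
    rw [hf.herm u (v + w), hf.add_left, map_add, ← hf.herm, ← hf.herm]
  · intro c u v
    rw [hf.herm u (c • v), hf.smul_left, map_mul, ← hf.herm]

theorem quad_le_polar (Q : (Fin n → F) → F) :
    quadSimilarityGroup Q ≤ similarityGroup (QuadraticMap.polar Q) := by
  rintro g ⟨c, hc⟩
  refine ⟨c, fun u v => ?_⟩
  unfold QuadraticMap.polar
  rw [← Matrix.mulVec_add, hc, hc, hc]
  ring

theorem not_sl_le_quad (hn : 4 ≤ n) {Q : (Fin n → F) → F} (hQ : IsNondegenerateQuadraticForm Q) :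
    ¬ specialLinear (Fin n) F ≤ quadSimilarityGroup Q := fun h =>
  not_sl_le_similarity hn (QuadraticMap.polar Q) id
    (fun u v w => hQ.polar_bilinear.add_right u v w)
    (fun c u v => hQ.polar_bilinear.smul_right c u v) hQ.nondegenerate (h.trans (quad_le_polar Q))

end Cfsg.Agent.H908
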