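import Cfsg.Agent.H308.CA.Stmts
import Cfsg.Agent.H507.GmnLinA
import Cfsg.Agent.H709.CharPow
import Cfsg.Agent.H183.SemisSU
import Cfsg.Agent.H103.PGUUpper
import Cfsg.Agent.H199.PslGraphField

/-!
# S3852, [CA3]: power conjugacy of semisimple elements of order prime to `q - ε` (helper908)

`pc_st : Gd E → PCSt E`.
-/

set_option autoImplicit false
set_option linter.unusedSectionVars false

namespace Cfsg.Agent.H908.CarterPC

open Matrix Cfsg.Agent.H308.CA

local notation "SS" => Cfsg.Agent.H308.CA.SU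

section reindex

variable {ι κ : Type} [Fintype ι] [DecidableEq ι] [Fintype κ] [DecidableEq κ] {E : Type} [CommRing E] [StarRing E]

/-- renaming the coordinates -/
def re (e : ι ≃ κ) (x : SS ι E) : SS κ E :=
  mkSU ((mt x).submatrix e.symm e.symm)
    (by rw [star_eq_conjTranspose, conjTranspose_submatrix, submatrix_mul_equiv, ← star_eq_conjTranspose, star_mt_mul,
      submatrix_one_equiv])
    (by rw [det_submatrix_equiv_self, mt_det])

theorem mt_re (e : ι ≃ κ) (x : SS ι E) : mt (re e x) = (mt x).submatrix e.symm e.symm := rfl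

theorem sub_pow (e : ι ≃ κ) (M : Matrix ι ι E) (k : ℕ) :
    (M.submatrix e.symm e.symm) ^ k = (M ^ k).submatrix e.symm e.symm := by
  induction k with
  | zero => rw [pow_zero, pow_zero, submatrix_one_equiv]
  | succ k ih => rw [pow_succ, pow_succ, ih, submatrix_mul_equiv]

theorem sc_sub (e : ι ≃ κ) {M N : Matrix ι ι E} (h : Sc M N) :
    Sc (M.submatrix e.symm e.symm) (N.submatrix e.symm e.symm) := by
  obtain ⟨c, h1, h2⟩ := h
  exact ⟨c, h1, by rw [h2, submatrix_smul]; rfl⟩

theorem sc_sub_iff (e : ι ≃ κ) {M N : Matrix ι ι E} :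
    Sc (M.submatrix e.symm e.symm) (N.submatrix e.symm e.symm) ↔ Sc M N := by
  refine ⟨fun h => ?_, sc_sub e⟩
  have h1 := sc_sub e.symm h
  simpa using h1

/-- reduction to `ι = Fin n` -/
theorem of_fin {r : ℕ} (e : ι ≃ κ) (x : SS ι E)
    (h : ∀ x : SS κ E, Sc (mt x ^ r) 1 → ∃ (g : SS κ E) (a : ℕ), ¬ a ≡ 1 [MOD r] ∧ Sc (mt (g * x * g⁻¹)) (mt x ^ a))
    (hx : Sc (mt x ^ r) 1) : ∃ (g : SS ι E) (a : ℕ), ¬ a ≡ 1 [MOD r] ∧ Sc (mt (g * x * g⁻¹)) (mt x ^ a) := by
  obtain ⟨g, a, ha, hg⟩ := h (re e x) (by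
    rw [mt_re, sub_pow, ← submatrix_one_equiv e.symm]
    exact sc_sub e hx)
  refine ⟨re e.symm g, a, ha, ?_⟩
  rw [mt_re, sub_pow] at hg
  rw [← sc_sub_iff e]
  convert hg using 1
  rw [map_mul, map_mul, mt_inv, map_mul, map_mul, mt_inv, mt_re, mt_re, Equiv.symm_symm,
    star_eq_conjTranspose, star_eq_conjTranspose, conjTranspose_submatrix, ← submatrix_mul_equiv _ _ _ e.symm,
    ← submatrix_mul_equiv _ _ _ e.symm]
  simp

end reindex

section lin

variable {ι : Type} [Fintype ι] [DecidableEq ι] {F : Type} [Field F]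

/-- the first projection -/
def p1 (F : Type) [Field F] : Ex F →+* F := RingHom.fst F F

/-- the second projection -/
def p2 (F : Type) [Field F] : Ex F →+* F := RingHom.snd F F

/-- a matrix over `F × F` from a pair of matrices -/
def pr2 (A B : Matrix ι ι F) : Matrix ι ι (Ex F) := Matrix.of fun i j => ((A i j, B j i) : F × F)

theorem ext2 {M N : Matrix ι ι (Ex F)} (h1 : M.map (p1 F) = N.map (p1 F)) (h2 : M.map (p2 F) = N.map (p2 F)) :
    M = N := by
  ext i j
  exact Prod.ext (congrFun (congrFun h1 i) j) (congrFun (congrFun h2 i) j)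

theorem pr2_p1 (A B : Matrix ι ι F) : (pr2 A B).map (p1 F) = A := rfl

theorem pr2_p2 (A B : Matrix ι ι F) : (pr2 A B).map (p2 F) = Bᵀ := rfl

theorem pr2_mul (A B C D : Matrix ι ι F) : pr2 A B * pr2 C D = pr2 (A * C) (D * B) := by
  refine ext2 ?_ ?_
  · rw [Matrix.map_mul, pr2_p1, pr2_p1, pr2_p1]
  · rw [Matrix.map_mul, pr2_p2, pr2_p2, pr2_p2, transpose_mul]

theorem pr2_one : pr2 (1 : Matrix ι ι F) 1 = 1 := by
  refine ext2 ?_ ?_
  · rw [pr2_p1, Matrix.map_one _ (map_zero _) (map_one _)]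
  · rw [pr2_p2, Matrix.map_one _ (map_zero _) (map_one _), transpose_one]

theorem pr2_pow (A B : Matrix ι ι F) (k : ℕ) : pr2 A B ^ k = pr2 (A ^ k) (B ^ k) := by
  induction k with
  | zero => rw [pow_zero, pow_zero, pow_zero, pr2_one]
  | succ k ih => rw [pow_succ, ih, pr2_mul, pow_succ, pow_succ' B]

theorem star_pr2 (A B : Matrix ι ι F) : star (pr2 A B) = pr2 B A := rfl

theorem pr2_smul (c d : F) (A B : Matrix ι ι F) : (show Ex F from (c, d)) • pr2 A B = pr2 (c • A) (d • B) := rfl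

theorem eq_pr2 (M : Matrix ι ι (Ex F)) : M = pr2 (M.map (p1 F)) (M.map (p2 F))ᵀ := rfl

theorem det_pr2 (A B : Matrix ι ι F) (hA : A.det = 1) (hB : B.det = 1) : (pr2 A B).det = 1 := by
  have h1 : p1 F (pr2 A B).det = 1 := by rw [RingHom.map_det]; exact hA
  have h2 : p2 F (pr2 A B).det = 1 := by
    rw [RingHom.map_det]
    change ((pr2 A B).map (p2 F)).det = 1
    rw [pr2_p2, det_transpose]
    exact hB
  exact Prod.ext h1 h2

end lin

section main

open Cfsg.Agent.ClassicalGeometry.AutPSL.Root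

theorem pc_lin {F : Type} [Field F] [Finite F] {n : ℕ} {r : ℕ} (hr : r.Prime) (hu : IsUnit (r : Ex F))
    (hru : ¬ r ∣ Nat.card (unitary (Ex F))) (x : SS (Fin n) (Ex F)) (hx : Sc (mt x ^ r) 1) :
    ∃ (g : SS (Fin n) (Ex F)) (a : ℕ), ¬ a ≡ 1 [MOD r] ∧ Sc (mt (g * x * g⁻¹)) (mt x ^ a) := by
  classical
  have := Fintype.ofFinite F
  have := Fact.mk hr
  have hrF : (r : F) ≠ 0 := by
    have h1 := hu.map (p1 F)
    rw [map_natCast] at h1
    exact h1.ne_zero
  have hrq : ¬ r ∣ Fintype.card F - 1 := by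
    intro hd
    rw [← Fintype.card_units, ← Nat.card_eq_fintype_card] at hd
    obtain ⟨u, hu⟩ := exists_prime_orderOf_dvd_card' (G := Fˣ) r hd
    apply hru
    let w : unitary (Ex F) := ⟨(((u : Fˣ) : F), ((u⁻¹ : Fˣ) : F)), by
      refine Unitary.mem_iff.2 ?_
      constructor
      · exact Prod.ext (by change ((u⁻¹ : Fˣ) : F) * ((u : Fˣ) : F) = 1; simp)
          (by change ((u : Fˣ) : F) * ((u⁻¹ : Fˣ) : F) = 1; simp)
      · exact Prod.ext (by change ((u : Fˣ) : F) * ((u⁻¹ : Fˣ) : F) = 1; simp)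
          (by change ((u⁻¹ : Fˣ) : F) * ((u : Fˣ) : F) = 1; simp)⟩
    have hwk : ∀ k : ℕ, ((w ^ k : unitary (Ex F)) : Ex F).1 = ((u ^ k : Fˣ) : F) := by
      intro k
      rw [Units.val_pow_eq_pow_val]
      rfl
    have hw1 : w ≠ 1 := by
      intro h
      have h1 := hwk 1
      rw [pow_one, pow_one, h] at h1
      have h2 : u = 1 := Units.ext h1.symm
      rw [h2, orderOf_one] at hu
      exact hr.one_lt.ne hu
    have hwr : w ^ r = 1 := by
      apply Subtype.ext
      refine Prod.ext ?_ ?_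
      · rw [hwk, ← hu, pow_orderOf_eq_one]
        rfl
      · change (((u⁻¹ : Fˣ) : F)) ^ r = 1
        rw [← Units.val_pow_eq_pow_val, inv_pow, ← hu, pow_orderOf_eq_one, inv_one, Units.val_one]
    rw [← orderOf_eq_prime hwr hw1]
    have hfin : Finite (Ex F) := inferInstance
    exact orderOf_dvd_natCard w
  -- the two matrices
  let A : Matrix (Fin n) (Fin n) F := (mt x).map (p1 F)
  let B : Matrix (Fin n) (Fin n) F := ((mt x).map (p2 F))ᵀ
  have hxAB : mt x = pr2 A B := eq_pr2 _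
  have hAdet : A.det = 1 := by
    have h1 := congrArg (p1 F) (mt_det x)
    rw [RingHom.map_det, map_one] at h1
    exact h1
  have hBdet : B.det = 1 := by
    have h1 := congrArg (p2 F) (mt_det x)
    rw [RingHom.map_det, map_one] at h1
    change (((mt x).map (p2 F))ᵀ).det = 1
    rw [det_transpose]
    exact h1
  have hBA : B * A = 1 := by
    have h1 := star_mt_mul x
    rw [hxAB, star_pr2, pr2_mul] at h1
    have h2 := congrArg (fun M : Matrix (Fin n) (Fin n) (Ex F) => M.map (p1 F)) h1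
    simp only [pr2_p1] at h2
    rw [h2, Matrix.map_one _ (map_zero _) (map_one _)]
  have hAB : A * B = 1 := mul_eq_one_comm.1 hBA
  let A' : Matrix.SpecialLinearGroup (Fin n) F := ⟨A, hAdet⟩
  obtain ⟨c, hc1, hc⟩ := hx
  have hAr : A ^ r = p1 F c • (1 : Matrix (Fin n) (Fin n) F) := by
    rw [hxAB, pr2_pow] at hc
    have h2 := congrArg (fun M : Matrix (Fin n) (Fin n) (Ex F) => M.map (p1 F)) hc
    simp only [pr2_p1] at h2
    rw [h2]
    ext i j
    rw [Matrix.map_apply, Matrix.smul_apply, Matrix.smul_apply, smul_eq_mul, smul_eq_mul, map_mul, Matrix.one_apply,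
      Matrix.one_apply]
    congr 1
    split_ifs
    · exact map_one _
    · exact map_zero _
  have hz : (pr A') ^ r = 1 := by
    rw [← map_pow, ← map_one (pr : Matrix.SpecialLinearGroup (Fin n) F →* _)]
    refine (pr_eq_of_smul (c := p1 F c) ?_).symm
    rw [Matrix.SpecialLinearGroup.coe_pow, Matrix.SpecialLinearGroup.coe_one]
    exact hAr
  obtain ⟨g, hg⟩ := Cfsg.Agent.H507.GmnLinA.conj_pow hr hrF hrq hz
  obtain ⟨G, rfl⟩ := pr_surjective g
  rw [← map_mul, ← map_inv, ← map_mul, ← map_pow] at hg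
  obtain ⟨k, hk⟩ := exists_smul_of_pr_eq hg.symm
  rw [Matrix.SpecialLinearGroup.coe_mul, Matrix.SpecialLinearGroup.coe_mul, Matrix.SpecialLinearGroup.coe_pow] at hk
  -- the unitary element
  set P : Matrix (Fin n) (Fin n) F := (G : Matrix (Fin n) (Fin n) F) with hP
  set Q : Matrix (Fin n) (Fin n) F := ((G⁻¹ : Matrix.SpecialLinearGroup (Fin n) F) : Matrix (Fin n) (Fin n) F) with hQ
  have hPQ : P * Q = 1 := by
    rw [hP, hQ, ← Matrix.SpecialLinearGroup.coe_mul, mul_inv_cancel, Matrix.SpecialLinearGroup.coe_one]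
  have hQP : Q * P = 1 := mul_eq_one_comm.1 hPQ
  let g' : SS (Fin n) (Ex F) := mkSU (pr2 P Q) (by rw [star_pr2, pr2_mul, hQP, pr2_one])
    (det_pr2 _ _ G.2 (G⁻¹).2)
  refine ⟨g', Fintype.card F, Cfsg.Agent.H507.GmnLinA.not_modEq Fintype.card_pos hrq, ?_⟩
  have hk' : P * A * Q = k • A ^ Fintype.card F := hk
  rcases Nat.eq_zero_or_pos n with rfl | hn
  · refine ⟨1, by rw [star_one, one_mul], ?_⟩
    ext i
    exact i.elim0
  have hk0 : k ≠ 0 := by
    rintro rfl
    rw [zero_smul] at hk'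
    have h1 : (1 : Matrix (Fin n) (Fin n) F) = 0 := by
      calc (1 : Matrix (Fin n) (Fin n) F) = Q * (P * A * Q) * P * B := by
            rw [mul_assoc P A Q, ← mul_assoc Q P, hQP, one_mul, mul_assoc A Q P, hQP, mul_one, hAB]
        _ = 0 := by rw [hk', mul_zero, zero_mul, zero_mul]
    have h2 := congrFun (congrFun h1 ⟨0, hn⟩) ⟨0, hn⟩
    rw [Matrix.one_apply_eq, Matrix.zero_apply] at h2
    exact one_ne_zero h2
  have hkB : P * B * Q = k⁻¹ • B ^ Fintype.card F := by
    have e1 : (P * A * Q) * (P * B * Q) = 1 := by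
      calc (P * A * Q) * (P * B * Q) = P * A * (Q * P) * B * Q := by noncomm_ring
        _ = P * (A * B) * Q := by rw [hQP]; noncomm_ring
        _ = 1 := by rw [hAB, mul_one, hPQ]
    have e2 : (P * A * Q) * (k⁻¹ • B ^ Fintype.card F) = 1 := by
      rw [hk', Matrix.smul_mul, Matrix.mul_smul, smul_smul, mul_inv_cancel₀ hk0, one_smul]
      have hcomm : Commute A B := by
        change A * B = B * A
        rw [hAB, hBA]
      rw [← hcomm.mul_pow, hAB, one_pow]
    have e3 : (P * B * Q) * (P * A * Q) = 1 := mul_eq_one_comm.1 e1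
    calc P * B * Q = (P * B * Q) * ((P * A * Q) * (k⁻¹ • B ^ Fintype.card F)) := by rw [e2, mul_one]
      _ = ((P * B * Q) * (P * A * Q)) * (k⁻¹ • B ^ Fintype.card F) := (mul_assoc _ _ _).symm
      _ = _ := by rw [e3, one_mul]
  refine ⟨((k, k⁻¹) : F × F), ?_, ?_⟩
  · exact Prod.ext (inv_mul_cancel₀ hk0) (mul_inv_cancel₀ hk0)
  · rw [map_mul, map_mul, mt_inv, mt_mkSU, star_pr2, hxAB, pr2_mul, pr2_mul, pr2_pow]
    change _ = (show Ex F from (k, k⁻¹)) • pr2 (A ^ Fintype.card F) (B ^ Fintype.card F)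
    rw [pr2_smul, ← hk', ← hkB, mul_assoc P B Q]

/-- The fixed field of a nontrivial involution of a finite field. -/
theorem exists_q {E : Type} [Field E] [Fintype E] [StarRing E] (hs : ∃ a : E, star a ≠ a) :
    ∃ q : ℕ, Fintype.card E = q ^ 2 ∧ ∀ a : E, star a = a ^ q := by
  classical
  obtain ⟨a, ha⟩ := hs
  have h1 : ∃ l : E, l + star l = 1 := by
    have h1 : ∃ m : E, m + star m ≠ 0 := by
      by_contra hcon
      push Not at hcon
      have h1 := hcon 1
      have h2 := hcon a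
      rw [star_one] at h1
      apply ha
      linear_combination h2 - a * h1
    obtain ⟨m, hm⟩ := h1
    refine ⟨m / (m + star m), ?_⟩
    have h2 : star (m + star m) = m + star m := by rw [star_add, star_star, add_comm]
    rw [star_div₀, h2, ← add_div, div_self hm]
  obtain ⟨l, hl⟩ := h1
  let S : E →+ E := (starRingEnd E : E →+ E)
  have hS : ∀ x, S x = star x := fun x => rfl
  let T : E →+ E := AddMonoidHom.id E - S
  let T' : E →+ E := AddMonoidHom.id E + S
  have hT : ∀ x, T x = x - star x := fun x => rfl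
  have hT' : ∀ x, T' x = x + star x := fun x => rfl
  have hd : a - star a ≠ 0 := sub_ne_zero.2 (Ne.symm ha)
  have hsd : star (a - star a) = -(a - star a) := by rw [star_sub, star_star]; ring
  -- the kernel of `T` is the range of `T'`
  have e1 : T'.range = T.ker := by
    ext x
    rw [AddMonoidHom.mem_range, AddMonoidHom.mem_ker]
    constructor
    · rintro ⟨y, rfl⟩
      rw [hT, hT', star_add, star_star]
      ring
    · intro hx
      rw [hT, sub_eq_zero] at hx
      refine ⟨l * x, ?_⟩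
      rw [hT', star_mul', ← hx, ← add_mul, hl, one_mul]
  -- the kernel of `T'` is in bijection with the kernel of `T`
  have e2 : Nat.card T'.ker = Nat.card T.ker := by
    refine Nat.card_congr
      { toFun := fun x => ⟨(x : E) / (a - star a), ?_⟩
        invFun := fun x => ⟨(x : E) * (a - star a), ?_⟩
        left_inv := fun x => Subtype.ext (div_mul_cancel₀ _ hd)
        right_inv := fun x => Subtype.ext (mul_div_cancel_right₀ _ hd) }
    · have hx := x.2
      rw [AddMonoidHom.mem_ker, hT'] at hx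
      rw [AddMonoidHom.mem_ker, hT, star_div₀, hsd, div_neg, sub_neg_eq_add, ← add_div, hx, zero_div]
    · have hx := x.2
      rw [AddMonoidHom.mem_ker, hT, sub_eq_zero] at hx
      rw [AddMonoidHom.mem_ker, hT', star_mul', hsd, ← hx]
      ring
  have e3 : Nat.card T'.ker * T'.ker.index = Nat.card E := AddSubgroup.card_mul_index _
  rw [AddSubgroup.index_ker, e1, e2] at e3
  refine ⟨Nat.card T.ker, by rw [← Nat.card_eq_fintype_card, ← e3, sq], fun x => ?_⟩
  have hF : Fintype.card E = (Nat.card T.ker) ^ 2 := by rw [← Nat.card_eq_fintype_card, ← e3, sq]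
  let σ : E ≃+* E :=
    { toFun := star
      invFun := star
      left_inv := star_star
      right_inv := star_star
      map_mul' := star_mul'
      map_add' := star_add }
  have hσ : orderOf σ = 2 := by
    refine orderOf_eq_prime ?_ ?_
    · ext y
      exact star_star y
    · intro h
      exact ha (DFunLike.congr_fun h a)
  exact Cfsg.Agent.H199.PslGraphField.eq_pow hF hσ x

open Cfsg.Agent.H186 in
/-- In `SU`, `g ^ q` is conjugate to `g⁻¹` for `g` of order prime to the characteristic. -/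
theorem su_conj {K : Type} [Field K] [Fintype K] {q n : ℕ} (hK : Fintype.card K = q ^ 2) (g : Cfsg.SU n K q)
    {r : ℕ} (hr : r.Prime) (hrq : ¬ r ∣ q) (hg : g ^ r = 1) : IsConj (g ^ q) g⁻¹ := by
  obtain ⟨p, f, hpp, hf, hq, hch⟩ : ∃ (p f : ℕ), p.Prime ∧ 1 ≤ f ∧ q = p ^ f ∧ CharP K p := by
    obtain ⟨p, hp⟩ := CharP.exists K
    obtain ⟨k, hpp, hk⟩ := FiniteField.card K p
    obtain ⟨f, -, hf⟩ := (Nat.dvd_prime_pow hpp).1 (show q ∣ p ^ (k : ℕ) from ⟨q, by rw [← hk, hK, sq]⟩)
    refine ⟨p, f, hpp, ?_, hf, hp⟩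
    rcases Nat.eq_zero_or_pos f with h0 | h0
    · exfalso
      have := Cfsg.Agent.ClassicalGeometry.GUBasic.two_le hK
      rw [hf, h0, pow_zero] at this
      omega
    · exact h0
  have : Fact p.Prime := ⟨hpp⟩
  have hrp : Nat.Coprime r p := (Nat.coprime_primes hr hpp).2 (by
    rintro rfl
    exact hrq (hq ▸ dvd_pow_self r (by omega)))
  have ho : ∀ x : Cfsg.SU n K q, x ^ r = 1 → (orderOf x).Coprime p := fun x hx =>
    Nat.Coprime.coprime_dvd_left (orderOf_dvd_of_pow_eq_one hx) hrp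
  apply Cfsg.Agent.H183.Semis.su_isConj hK p
  · apply ho
    rw [← pow_mul, mul_comm, pow_mul, hg, one_pow]
  · apply ho
    rw [inv_pow, hg, inv_one]
  · have hmem : ((g : Matrix.SpecialLinearGroup (Fin n) K) : GL (Fin n) K) ∈ GU n K q := g.2
    have h1 := Cfsg.Agent.H103.PGUUpper.charpoly_inv_map (p := p) hq hK
      (((g : Matrix.SpecialLinearGroup (Fin n) K) : GL (Fin n) K)⁻¹) ((GU n K q).inv_mem hmem)
    rw [inv_inv] at h1
    have h2 : (((g ^ q : Cfsg.SU n K q) : Matrix.SpecialLinearGroup (Fin n) K) : Matrix (Fin n) (Fin n) K)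
        = ((g : Matrix.SpecialLinearGroup (Fin n) K) : Matrix (Fin n) (Fin n) K) ^ (p ^ f) := by
      rw [← hq, Subgroup.coe_pow, Matrix.SpecialLinearGroup.coe_pow]
    rw [h2, Cfsg.Agent.H709.CharPow.charpoly_pow_char]
    exact h1

open Cfsg.Agent.H186 in
theorem pc_uni {E : Type} [Field E] [StarRing E] [Finite E] (hs : ∃ a : E, star a ≠ a) {n : ℕ} {r : ℕ}
    (hr : r.Prime) (hu : IsUnit (r : E))
    (hru : ¬ r ∣ Nat.card (unitary E)) (x : SS (Fin n) E) (hx : Sc (mt x ^ r) 1) :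
    ∃ (g : SS (Fin n) E) (a : ℕ), ¬ a ≡ 1 [MOD r] ∧ Sc (mt (g * x * g⁻¹)) (mt x ^ a) := by
  classical
  have := Fintype.ofFinite E
  have := Fact.mk hr
  obtain ⟨q, hK, hq⟩ := exists_q hs
  have hq2 := Cfsg.Agent.ClassicalGeometry.GUBasic.two_le hK
  have hrq : ¬ r ∣ q := by
    intro hd
    have h1 : (r : E) ∣ ((q : ℕ) : E) := Nat.cast_dvd_cast hd
    have h2 : ((q : ℕ) : E) = 0 := by
      have h3 : ((Fintype.card E : ℕ) : E) = 0 := FiniteField.cast_card_eq_zero E
      rw [hK, Nat.cast_pow] at h3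
      exact pow_eq_zero_iff two_ne_zero |>.1 h3
    obtain ⟨p, hp⟩ := CharP.exists E
    obtain ⟨k, hpp, hk⟩ := FiniteField.card E p
    obtain ⟨f, -, hf⟩ := (Nat.dvd_prime_pow hpp).1 (show q ∣ p ^ (k : ℕ) from ⟨q, by rw [← hk, hK, sq]⟩)
    have h4 : r ∣ p ^ f := hf ▸ hd
    have h5 : r = p := (Nat.prime_dvd_prime_iff_eq hr hpp).1 (hr.dvd_of_dvd_pow h4)
    rw [h5, CharP.cast_eq_zero] at hu
    exact not_isUnit_zero hu
  have hrq1 : ¬ r ∣ q + 1 := by
    intro hd
    have h1 : r ∣ Nat.card Eˣ := by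
      rw [Nat.card_eq_fintype_card, Fintype.card_units, hK]
      have h2 := Nat.sq_sub_sq q 1
      rw [one_pow] at h2
      rw [h2]
      exact hd.mul_right _
    obtain ⟨u, hu'⟩ := exists_prime_orderOf_dvd_card' (G := Eˣ) r h1
    have hu1 : u ^ (q + 1) = 1 := orderOf_dvd_iff_pow_eq_one.1 (hu' ▸ hd)
    have hu2 : (u : E) ^ q * u = 1 := by
      rw [← pow_succ, ← Units.val_pow_eq_pow_val, hu1, Units.val_one]
    apply hru
    let w : unitary E := ⟨(u : E), by
      refine Unitary.mem_iff.2 ⟨?_, ?_⟩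
      · rw [hq]; exact hu2
      · rw [hq, mul_comm]; exact hu2⟩
    have hw1 : w ≠ 1 := by
      intro h
      have h2 : u = 1 := Units.ext (congrArg Subtype.val h)
      rw [h2, orderOf_one] at hu'
      exact hr.one_lt.ne hu'
    have hwr : w ^ r = 1 := by
      apply Subtype.ext
      change (u : E) ^ r = 1
      rw [← Units.val_pow_eq_pow_val, ← hu', pow_orderOf_eq_one, Units.val_one]
    rw [← orderOf_eq_prime hwr hw1]
    exact orderOf_dvd_natCard w
  have hstar : ∀ M : Matrix (Fin n) (Fin n) E, star M = st q M := by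
    intro M
    ext i j
    rw [st_apply, star_apply, hq]
  -- the scalar
  obtain ⟨c, hc1, hc⟩ := hx
  have hcU : c ∈ unitary E := Unitary.mem_iff.2 ⟨hc1, by rw [mul_comm]; exact hc1⟩
  obtain ⟨k, hk⟩ : ∃ k : ℕ, r * k ≡ 1 [MOD Nat.card (unitary E)] := by
    have hcop : Nat.Coprime r (Nat.card (unitary E)) := (Nat.Prime.coprime_iff_not_dvd hr).2 hru
    rcases Nat.lt_or_ge 1 (Nat.card (unitary E)) with h1 | h1
    · obtain ⟨k, -, hk⟩ := Nat.exists_mul_mod_eq_one_of_coprime hcop h1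
      exact ⟨k, by rw [Nat.ModEq, hk, Nat.mod_eq_of_lt h1]⟩
    · have h2 : Nat.card (unitary E) = 1 := le_antisymm h1 Nat.card_pos
      exact ⟨0, by rw [h2]; exact Nat.modEq_one⟩
  let C : unitary E := ⟨c, hcU⟩
  let D : unitary E := C⁻¹ ^ k
  have hD : D ^ r * C = 1 := by
    have h1 : D ^ r = C⁻¹ := by
      rw [← pow_mul, mul_comm k r]
      have h2 : C⁻¹ ^ (r * k) = C⁻¹ ^ 1 :=
        pow_eq_pow_iff_modEq.2 (hk.of_dvd (orderOf_dvd_natCard _))
      rw [h2, pow_one]
    rw [h1, inv_mul_cancel]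
  have hd1 : (D : E) ^ r * c = 1 := congrArg Subtype.val hD
  have hdu : star (D : E) * D = 1 := (Unitary.mem_iff.1 D.2).1
  have hcn : c ^ n = 1 := by
    have h1 := congrArg Matrix.det hc
    rw [det_pow, mt_det, one_pow, det_smul, det_one, mul_one, Fintype.card_fin] at h1
    exact h1.symm
  have hdn : (D : E) ^ n = 1 := by
    have h1 : C ^ n = 1 := Subtype.ext hcn
    have h2 : D ^ n = 1 := by
      rw [← pow_mul, mul_comm k n, pow_mul, inv_pow, h1, inv_one, one_pow]
    exact congrArg Subtype.val h2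
  -- the element of the group `SU n E q`
  let M : Matrix (Fin n) (Fin n) E := (D : E) • mt x
  have hMst : st q M * M = 1 := by
    rw [← hstar]
    change star ((D : E) • mt x) * ((D : E) • mt x) = 1
    rw [star_smul, Matrix.smul_mul, Matrix.mul_smul, smul_smul, star_mt_mul, hdu, one_smul]
  have hMdet : M.det = 1 := by
    change ((D : E) • mt x).det = 1
    rw [det_smul, mt_det, mul_one, Fintype.card_fin, hdn]
  let Y' : Matrix.SpecialLinearGroup (Fin n) E := ⟨M, hMdet⟩
  have hmem : ∀ N : Matrix.SpecialLinearGroup (Fin n) E, st q (N : Matrix (Fin n) (Fin n) E) * (N : Matrix (Fin n) (Fin n) E) = 1 →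
      N ∈ Cfsg.SU n E q := by
    intro N hN u' v'
    have h1 : ((N : Matrix.SpecialLinearGroup (Fin n) E) : GL (Fin n) E) ∈ Cfsg.GU n E q :=
      (mem_GU_iff_st hK _).2 hN
    exact h1 u' v'
  let Y : Cfsg.SU n E q := ⟨Y', hmem Y' hMst⟩
  have hYr : Y ^ r = 1 := by
    apply Subtype.ext
    apply Subtype.ext
    rw [Subgroup.coe_pow, Matrix.SpecialLinearGroup.coe_pow]
    change ((D : E) • mt x) ^ r = 1
    rw [smul_pow, hc, smul_smul, hd1, one_smul]
  obtain ⟨G, hG⟩ := isConj_iff.1 (su_conj hK Y hr hrq hYr).symm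
  have hGY : G * Y * G⁻¹ = Y ^ ((r - 1) * q) := by
    have h4 : G * Y * G⁻¹ = (Y ^ q)⁻¹ := by
      rw [← hG]
      group
    rw [h4, pow_mul]
    have h5 : Y ^ (r - 1) = Y⁻¹ := by
      rw [eq_inv_iff_mul_eq_one, ← pow_succ]
      have : r - 1 + 1 = r := by have := hr.one_lt; omega
      rw [this, hYr]
    rw [h5, inv_pow]
  have hGst : st q ((G : Matrix.SpecialLinearGroup (Fin n) E) : Matrix (Fin n) (Fin n) E) *
      ((G : Matrix.SpecialLinearGroup (Fin n) E) : Matrix (Fin n) (Fin n) E) = 1 := by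
    have h1 : ((G : Matrix.SpecialLinearGroup (Fin n) E) : GL (Fin n) E) ∈ Cfsg.GU n E q := G.2
    exact (mem_GU_iff_st hK _).1 h1
  let g : SS (Fin n) E := mkSU ((G : Matrix.SpecialLinearGroup (Fin n) E) : Matrix (Fin n) (Fin n) E)
    (by rw [hstar]; exact hGst) (G : Matrix.SpecialLinearGroup (Fin n) E).2
  have hGinv : (((G⁻¹ : Cfsg.SU n E q) : Matrix.SpecialLinearGroup (Fin n) E) : Matrix (Fin n) (Fin n) E) =
      star (mt g) := by
    have h1 : (((G⁻¹ : Cfsg.SU n E q) : Matrix.SpecialLinearGroup (Fin n) E) : Matrix (Fin n) (Fin n) E) * mt g = 1 := by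
      change (((G⁻¹ : Cfsg.SU n E q) : Matrix.SpecialLinearGroup (Fin n) E) : Matrix (Fin n) (Fin n) E) *
        ((G : Matrix.SpecialLinearGroup (Fin n) E) : Matrix (Fin n) (Fin n) E) = 1
      rw [← Matrix.SpecialLinearGroup.coe_mul, ← Subgroup.coe_mul, inv_mul_cancel, Subgroup.coe_one,
        Matrix.SpecialLinearGroup.coe_one]
    calc _ = (((G⁻¹ : Cfsg.SU n E q) : Matrix.SpecialLinearGroup (Fin n) E) : Matrix (Fin n) (Fin n) E) *
          (mt g * star (mt g)) := by rw [mt_mul_star, mul_one]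
      _ = _ := by rw [← mul_assoc, h1, one_mul]
  have hmain : mt g * M * star (mt g) = M ^ ((r - 1) * q) := by
    have h1 := congrArg (fun Z : Cfsg.SU n E q => ((Z : Matrix.SpecialLinearGroup (Fin n) E) :
      Matrix (Fin n) (Fin n) E)) hGY
    simp only [Subgroup.coe_mul, Matrix.SpecialLinearGroup.coe_mul, Subgroup.coe_pow,
      Matrix.SpecialLinearGroup.coe_pow] at h1
    rw [hGinv] at h1
    exact h1
  refine ⟨g, (r - 1) * q, ?_, ?_⟩
  · intro h
    apply hrq1
    have h1 : (r - 1) * q + q = r * q := by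
      have := hr.one_lt
      obtain ⟨m, hm⟩ : ∃ m, r = m + 1 := ⟨r - 1, by omega⟩
      rw [hm]
      simp
      ring
    have h2 : (r - 1) * q + q ≡ 1 + q [MOD r] := Nat.ModEq.add_right q h
    rw [h1] at h2
    have h3 : 0 ≡ 1 + q [MOD r] := (Nat.modEq_zero_iff_dvd.2 (dvd_mul_right r q)).symm.trans h2
    rw [add_comm]
    exact (Nat.modEq_zero_iff_dvd.1 h3.symm)
  · have hDinv : star (D : E) • M = mt x := by
      change star (D : E) • ((D : E) • mt x) = mt x
      rw [smul_smul, hdu, one_smul]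
    refine ⟨star (D : E) * (D : E) ^ ((r - 1) * q), ?_, ?_⟩
    · have h1 : D⁻¹ * D ^ ((r - 1) * q) ∈ (⊤ : Subgroup (unitary E)) := Subgroup.mem_top _
      have h2 := (Unitary.mem_iff.1 (D⁻¹ * D ^ ((r - 1) * q)).2).1
      exact h2
    · rw [map_mul, map_mul, mt_inv, ← hDinv, Matrix.mul_smul, Matrix.smul_mul, hmain, hDinv]
      change star (D : E) • ((D : E) • mt x) ^ ((r - 1) * q) = _
      rw [smul_pow, smul_smul]

end main

/-- **[CA3]**: semisimple elements of prime order `r` modulo scalars, `r` prime to `q - ε`, are conjugate to a proper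
power modulo scalars. -/
theorem pc_st {E : Type} [CommRing E] [StarRing E] (h : Gd E) : PCSt E := by
  intro ι _ _ r hr _ hu hru x hx _
  refine of_fin (Fintype.equivFin ι) x (fun y hy => ?_) hx
  cases h with
  | lin F i _ => exact pc_lin hr hu hru y hy
  | uni F i s _ hs => exact pc_uni hs hr hu hru y hy

end Cfsg.Agent.H908.CarterPC
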