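import Cfsg.Agent.H908.FrameFive
import Cfsg.Agent.H905.SLFrames
import Cfsg.Agent.H912.Core4
import Cfsg.Agent.H921.SympDim

/-!
# The maximal subgroups of `SL_4(q)`: from the eight classes to the list of S5781
-/

set_option autoImplicit false
set_option linter.style.haveILetI false

namespace Cfsg.Agent.H908

open Cfsg.Geo Matrix

theorem isLinearSymplecticTypeData_eq_two {F : Type*} [Field F] [Fintype F] {r : ℕ}
    {R : Subgroup (GL (Fin 4) F)} (hR : IsLinearSymplecticTypeData r R) :
    r = 2 ∧ ∃ p : ℕ, p.Prime ∧ Fintype.card F = p ∧ p % 4 = 1 := by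
  obtain ⟨p, e, hrp, ⟨hp, hchar, hcard, hdvd, hmin⟩, h⟩ := hR.field
  haveI : Finite R := inferInstance
  rcases h with ⟨hr, he, hz, m, hm1, hm⟩ | ⟨hr, he, hz, h4, m, hm⟩ | ⟨hr, he, h2, -⟩
  · exfalso
    have h1 := Cfsg.Agent.H921.card_eq_pow_of_center_prime hR.symplecticType hR.absIrred hz hm
    rw [Fintype.card_fin] at h1
    have h2 : r ∣ 4 := by
      rw [h1]
      exact dvd_pow_self r (by omega)
    have h3 : r ≤ 4 := Nat.le_of_dvd (by norm_num) h2
    have h4 := hR.symplecticType.prime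
    interval_cases r
    · exact absurd h4 (by norm_num)
    · exact absurd h4 (by norm_num)
    · exact absurd hr (by decide)
    · exact absurd h2 (by norm_num)
    · exact absurd h4 (by norm_num)
  · refine ⟨hr, p, hp, ?_, ?_⟩
    · rw [hcard, he, pow_one]
    · rw [hz, he, pow_one] at hdvd
      have := hp.two_le
      omega
  · rw [Fintype.card_fin] at h2
    norm_num at h2

theorem sl4_cases {F : Type*} [Field F] [Fintype F] (H : Subgroup (GL (Fin 4) F))
    (hH : IsMaximalIn (specialLinear (Fin 4) F) H)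
    (hcore : (∃ M : Subgroup (GL (Fin 4) F), InLinearClass 4 F M ∧ H ≤ M) ∨
      InLinearResidualClass H) :
    (∃ W : Submodule F (Fin 4 → F), W ≠ ⊥ ∧ W ≠ ⊤ ∧ H = Cfsg.Geo.subspaceStabilizer W ⊓ Cfsg.Geo.specialLinear (Fin 4) F) ∨
    (7 ≤ Fintype.card F ∧ ∃ D : Fin 4 → Submodule F (Fin 4 → F), Cfsg.Geo.IsMDecomposition 1 D ∧ H = Cfsg.Geo.decompositionStabilizer D ⊓ Cfsg.Geo.specialLinear (Fin 4) F) ∨
    (4 ≤ Fintype.card F ∧ ∃ D : Fin 2 → Submodule F (Fin 4 → F), Cfsg.Geo.IsMDecomposition 2 D ∧ H = Cfsg.Geo.decompositionStabilizer D ⊓ Cfsg.Geo.specialLinear (Fin 4) F) ∨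
    (∃ K : Subalgebra F (Matrix (Fin 4) (Fin 4) F), Cfsg.Geo.IsFieldSubalgebra 2 K ∧ H = Cfsg.Geo.subalgebraNormalizer K ⊓ Cfsg.Geo.specialLinear (Fin 4) F) ∨
    (∃ (F₀ : Subfield F) (r : ℕ) (P : Matrix.GeneralLinearGroup (Fin 4) F), r.Prime ∧ Fintype.card F = Nat.card F₀ ^ r ∧ H = Cfsg.Geo.subfieldSubgroup F₀ P ⊓ Cfsg.Geo.specialLinear (Fin 4) F) ∨
    (∃ (p : ℕ) (R : Subgroup (Matrix.GeneralLinearGroup (Fin 4) F)), p.Prime ∧ Fintype.card F = p ∧ p % 4 = 1 ∧ Cfsg.Geo.IsLinearSymplecticTypeData 2 R ∧ H = Cfsg.Geo.subgroupNormalizer R ⊓ Cfsg.Geo.specialLinear (Fin 4) F) ∨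
    (Odd (Fintype.card F) ∧ ∃ Q : (Fin 4 → F) → F, Cfsg.Geo.IsNondegenerateQuadraticForm Q ∧ H = Cfsg.Geo.quadSimilarityGroup Q ⊓ Cfsg.Geo.specialLinear (Fin 4) F) ∨
    (∃ f : (Fin 4 → F) → (Fin 4 → F) → F, Cfsg.Geo.IsSymplecticForm f ∧ H = Cfsg.Geo.similarityGroup f ⊓ Cfsg.Geo.specialLinear (Fin 4) F) ∨
    (∃ (σ : F ≃+* F) (f : (Fin 4 → F) → (Fin 4 → F) → F), Cfsg.Geo.IsUnitaryForm σ f ∧ H = Cfsg.Geo.similarityGroup f ⊓ Cfsg.Geo.specialLinear (Fin 4) F) ∨
    Cfsg.Geo.InLinearResidualClass H := by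
  have hn : 3 ≤ Fintype.card (Fin 4) := by simp
  rcases hcore with ⟨M, hM, hHM⟩ | hres
  swap
  · iterate 9 right
    exact hres
  have hSM := Cfsg.Agent.H905.not_sl_le_of_inLinearClass (by norm_num : 3 ≤ 4) hM
  have hHM' := eq_inf_of_maximal hH hHM hSM
  have hstab : ∀ W : Submodule F (Fin 4 → F), W ≠ ⊥ → W ≠ ⊤ → H ≤ subspaceStabilizer W →
      H = subspaceStabilizer W ⊓ specialLinear (Fin 4) F := fun W h0 h1 h =>
    eq_inf_of_maximal hH h (Cfsg.Agent.H905.not_sl_le_subspaceStabilizer h0 h1)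
  rcases hM with ⟨W, h0, h1, rfl⟩ | ⟨W, U, h0, h1, -, rfl⟩ | ⟨W, U, h0, h1, h2, h3, rfl⟩ |
    ⟨t, m, D, hD, rfl⟩ | ⟨r, K, hr, hK, rfl⟩ | ⟨n₁, n₂, e, P, h1, h2, rfl⟩ |
    ⟨F₀, r, P, hr, h1, rfl⟩ | ⟨r, R, hR, rfl⟩ | ⟨m, t, e, P, h1, h2, rfl⟩ | ⟨f, hf, -, -, rfl⟩ |
    ⟨σ, f, hf, -, rfl⟩ | ⟨Q, hQ, hodd, -, rfl⟩
  · exact Or.inl ⟨W, h0, h1, hHM'⟩
  · exact Or.inl ⟨W, h0, (h1.trans_le le_top).ne, hstab W h0 (h1.trans_le le_top).ne
      (hHM.trans inf_le_left)⟩
  · have hW : W ≠ ⊤ := by
      rintro rfl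
      rw [top_inf_eq] at h1
      rw [h1, finrank_bot] at h3
      exact absurd h3 (Nat.not_lt_zero _)
    exact Or.inl ⟨W, h0, hW, hstab W h0 hW (hHM.trans inf_le_left)⟩
  · -- decompositions
    have htm := card_eq_of_decomp hD
    have ht := hD.two_le
    have hm := hD.pos
    have hcases : (t = 2 ∧ m = 2) ∨ (t = 4 ∧ m = 1) := by
      have : t ≤ 4 := by nlinarith
      interval_cases t
      · left; omega
      · exfalso; omega
      · right; omega
    rcases hcases with ⟨rfl, rfl⟩ | ⟨rfl, rfl⟩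
    · -- two planes
      rcases Nat.lt_or_ge (Fintype.card F) 4 with h4 | h4
      · obtain ⟨f, hf, hle⟩ := planes_symplectic (by omega) hD
        iterate 7 right
        left
        refine ⟨f, hf, eq_inf_of_maximal hH ((le_inf hHM hH.1.le).trans hle)
          (Cfsg.Agent.H905.not_sl_le_similarityGroup_symplectic hn hf)⟩
      · exact Or.inr (Or.inr (Or.inl ⟨h4, D, hD, hHM'⟩))
    · -- four lines
      rcases Nat.lt_or_ge (Fintype.card F) 7 with h7 | h7
      · rcases Cfsg.Agent.H905.frame_cases hn hH hD hHM with h | ⟨h5, -, h⟩ | h | h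
        · exact Or.inl h
        · have hF : Fintype.card F = 5 := by
            have h6 : Fintype.card F ≠ 6 := by
              intro h6
              have := FiniteField.isPrimePow_card F
              rw [h6] at this
              exact absurd this (by
                intro hh
                rw [isPrimePow_nat_iff] at hh
                obtain ⟨p, k, hp, hk, he⟩ := hh
                have h2 : p ∣ 6 := by rw [← he]; exact dvd_pow_self p (by omega)
                have h3 : p ≤ 6 := Nat.le_of_dvd (by norm_num) h2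
                interval_cases p
                · exact absurd hp (by norm_num)
                · exact absurd hp (by norm_num)
                · have : 3 ∣ 2 ^ k := by rw [he]; norm_num
                  have := (Nat.prime_three).dvd_of_dvd_pow this
                  omega
                · have : 2 ∣ 3 ^ k := by rw [he]; norm_num
                  have := (Nat.prime_two).dvd_of_dvd_pow this
                  omega
                · exact absurd hp (by norm_num)
                · omega
                · exact absurd hp (by norm_num))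
            omega
          obtain ⟨R, hR, hle⟩ := frame_five hF hD
          iterate 5 right
          left
          refine ⟨5, R, by norm_num, hF, by norm_num, hR,
            eq_inf_of_maximal hH ((le_inf hHM hH.1.le).trans hle)
              (Cfsg.Agent.H905.not_sl_le_subgroupNormalizer hn hR.symplecticType hR.absIrred)⟩
        · iterate 6 right
          left
          exact h
        · iterate 8 right
          left
          exact h
      · exact Or.inr (Or.inl ⟨h7, D, hD, hHM'⟩)
  · -- extension fields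
    have h1 := Cfsg.Agent.H912.finrank_dvd_of_fieldSub hK
    rw [Fintype.card_fin] at h1
    have h2 : r ≤ 4 := Nat.le_of_dvd (by norm_num) h1
    have h3 : r = 2 := by
      interval_cases r
      · exact absurd hr (by norm_num)
      · exact absurd hr (by norm_num)
      · rfl
      · exact absurd h1 (by norm_num)
      · exact absurd hr (by norm_num)
    subst h3
    exact Or.inr (Or.inr (Or.inr (Or.inl ⟨K, hK, hHM'⟩)))
  · exfalso
    have := Fintype.card_congr e
    rw [Fintype.card_fin, Fintype.card_prod, Fintype.card_fin, Fintype.card_fin] at this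
    nlinarith
  · iterate 4 right
    left
    exact ⟨F₀, r, P, hr, h1, hHM'⟩
  · obtain ⟨h2, p, hp, hF, h4⟩ := isLinearSymplecticTypeData_eq_two hR
    subst h2
    iterate 5 right
    left
    exact ⟨p, R, hp, hF, h4, hR, hHM'⟩
  · exfalso
    have := Fintype.card_congr e
    rw [Fintype.card_fin, Fintype.card_fun, Fintype.card_fin, Fintype.card_fin] at this
    have h9 : m ^ 2 ≤ m ^ t := Nat.pow_le_pow_right (by omega) h2
    nlinarith
  · iterate 7 right
    left
    exact ⟨f, hf, hHM'⟩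
  · iterate 8 right
    left
    exact ⟨σ, f, hf, hHM'⟩
  · iterate 6 right
    left
    exact ⟨hodd, Q, hQ, hHM'⟩

end Cfsg.Agent.H908
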